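import Mathlib
import Cfsg.Agent.H527.Co3.Asm
import Cfsg.Agent.H282.Co3.Alt2

/-!
# S1920, case B: the alternating row (helper738, from helper282's `dead_alt`)
-/

set_option autoImplicit false

open Subgroup Equiv Cfsg

universe u

namespace Cfsg.Agent.H738.C3

open Cfsg.Agent.H13.Co3 Cfsg.Agent.H527.Co3

/-- **The row of the alternating groups** -/
theorem row_alt : Row.{u} @IsAlternating := by
  intro G _ _ _ h P N0 z s ψ C
  obtain ⟨n, -, ⟨e⟩⟩ := h
  exact Cfsg.Agent.H282.Co3.dead_alt e C

end Cfsg.Agent.H738.C3
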