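import Mathlib
import Cfsg.Prelude.Def_CaseTheorems
import Cfsg.Agent.S0028
import Cfsg.Agent.Lib.Cores

/-!
# S1920, case B: the engine (helper738)

`N0` is the 2-group of order 64 (`N0 / <z>` elementary abelian), `Act z N0 g` : `[g, N0] ≤ <z>`;
`Conf` : the configuration, `Conf.comm_two` : every 2-subgroup of `G` normalized by `{g | Act z N0 g}` commutes with the
elements of odd order of `C_G(N0)`; `Conf.comm_char2` : the same for the subgroups of characteristic 2.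
-/

set_option autoImplicit false

open Subgroup

namespace Cfsg.Agent.H738.C3

variable {G : Type*} [Group G]

/-- `[g, N0] ≤ <z>` -/
def Act (z : G) (N0 : Subgroup G) (g : G) : Prop := ∀ a ∈ N0, g * a * g⁻¹ * a⁻¹ ∈ zpowers z

/-- the configuration of case B -/
structure Conf (z : G) (N0 : Subgroup G) : Prop where
  ord : orderOf z = 2
  mem : z ∈ N0
  card : Nat.card N0 = 64
  comm : ∀ a ∈ N0, Act z N0 a
  sq : ∀ a ∈ N0, a * a ∈ zpowers z
  kill : ∀ W : Subgroup G, IsPGroup 2 W → (∀ w ∈ W, Act z N0 w) →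
    (∀ g, Act z N0 g → ∀ w ∈ W, g * w * g⁻¹ ∈ W) → ∀ c, (∀ a ∈ N0, c * a = a * c) → ∀ w ∈ W, c * w = w * c

variable {z : G} {N0 : Subgroup G}

theorem mem_zp (hz : orderOf z = 2) {x : G} (h : x ∈ zpowers z) : x = 1 ∨ x = z := by
  obtain ⟨k, rfl⟩ := mem_zpowers_iff.1 h
  rcases Int.even_or_odd k with ⟨j, rfl⟩ | ⟨j, rfl⟩
  · left
    have hz2 : z ^ 2 = 1 := by rw [← hz, pow_orderOf_eq_one]
    have : z ^ (j + j) = (z ^ 2) ^ j := by rw [← zpow_natCast, ← zpow_mul]; congr 1; push_cast; ring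
    rw [this, hz2, one_zpow]
  · right
    have hz2 : z ^ 2 = 1 := by rw [← hz, pow_orderOf_eq_one]
    have : z ^ (2 * j + 1) = (z ^ 2) ^ j * z := by
      rw [zpow_add_one, zpow_mul]
      norm_cast
    rw [this, hz2, one_zpow, one_mul]

theorem Act.comm_z (hz : orderOf z = 2) (hzN : z ∈ N0) {g : G} (h : Act z N0 g) : g * z = z * g := by
  rcases mem_zp hz (h z hzN) with h1 | h1
  · rw [mul_inv_eq_one, mul_inv_eq_iff_eq_mul] at h1
    exact h1
  · exfalso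
    have h2 : g * z * g⁻¹ = 1 := by
      have hzz : z * z = 1 := by rw [← pow_two, ← hz, pow_orderOf_eq_one]
      rw [mul_inv_eq_iff_eq_mul, hzz] at h1
      exact h1
    have h3 : z = 1 := by
      rw [mul_inv_eq_one] at h2
      exact mul_left_cancel (h2.trans (mul_one g).symm)
    rw [h3, orderOf_one] at hz
    omega

theorem Act.one : Act z N0 (1 : G) := by
  intro a _
  simp

theorem Act.mul (hz : orderOf z = 2) (hzN : z ∈ N0) {g h : G} (hg : Act z N0 g) (hh : Act z N0 h) :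
    Act z N0 (g * h) := by
  intro a ha
  have e : g * h * a * (g * h)⁻¹ * a⁻¹ = (g * (h * a * h⁻¹ * a⁻¹) * g⁻¹) * (g * a * g⁻¹ * a⁻¹) := by group
  rw [e]
  refine mul_mem ?_ (hg a ha)
  rcases mem_zp hz (hh a ha) with h1 | h1
  · rw [h1, mul_one, mul_inv_cancel]
    exact one_mem _
  · rw [h1, hg.comm_z hz hzN, mul_inv_cancel_right]
    exact mem_zpowers z

theorem Act.inv (hz : orderOf z = 2) (hzN : z ∈ N0) {g : G} (hg : Act z N0 g) : Act z N0 g⁻¹ := by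
  intro a ha
  have h0 := hg a ha
  have hgz := hg.comm_z hz hzN
  have e : g⁻¹ * a * g⁻¹⁻¹ * a⁻¹ = g⁻¹ * (g * a * g⁻¹ * a⁻¹)⁻¹ * g := by group
  rw [e]
  rcases mem_zp hz h0 with h1 | h1
  · rw [h1]
    simp
  · rw [h1]
    have e2 : g⁻¹ * z⁻¹ * g = z⁻¹ := by
      have : z⁻¹ * g = g * z⁻¹ := by
        rw [inv_mul_eq_iff_eq_mul, ← mul_assoc, ← hgz, mul_inv_cancel_right]
      rw [mul_assoc, this, inv_mul_cancel_left]
    rw [e2]
    exact inv_mem (mem_zpowers z)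

/-- an element of `C(N0)` -/
theorem act_of_comm {c : G} (h : ∀ a ∈ N0, c * a = a * c) : Act z N0 c := by
  intro a ha
  rw [h a ha, mul_inv_cancel_right, mul_inv_cancel]
  exact one_mem _

namespace Conf

variable (C : Conf z N0)

include C

theorem isPGroup : IsPGroup 2 N0 := IsPGroup.of_card (n := 6) (by rw [C.card]; norm_num)

/-- **The engine**: a 2-subgroup normalized by all the `g` with `[g, N0] ≤ <z>` commutes with the elements of odd order of
`C(N0)`. -/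
theorem comm_two [Finite G] {Q : Subgroup G} (hQ : IsPGroup 2 Q)
    (hn : ∀ g, Act z N0 g → ∀ w ∈ Q, g * w * g⁻¹ ∈ Q) {c : G} (hc : ∀ a ∈ N0, c * a = a * c)
    (ho : Odd (orderOf c)) : ∀ w ∈ Q, c * w = w * c := by
  have : Fact (Nat.Prime 2) := ⟨Nat.prime_two⟩
  let W : Subgroup G :=
    { carrier := {w | w ∈ Q ∧ Act z N0 w}
      mul_mem' := fun {a b} ha hb => ⟨mul_mem ha.1 hb.1, ha.2.mul C.ord C.mem hb.2⟩
      one_mem' := ⟨one_mem _, Act.one⟩
      inv_mem' := fun {a} ha => ⟨inv_mem ha.1, ha.2.inv C.ord C.mem⟩ }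
  have hWQ : W ≤ Q := fun w hw => hw.1
  have hW2 : IsPGroup 2 W := hQ.to_le hWQ
  have hWc : ∀ w ∈ W, c * w = w * c := by
    refine C.kill W hW2 (fun w hw => hw.2) ?_ c hc
    intro g hg w hw
    exact ⟨hn g hg w hw.1, (hg.mul C.ord C.mem hw.2).mul C.ord C.mem (hg.inv C.ord C.mem)⟩
  have hco : (Nat.card (zpowers c)).Coprime 2 := by
    rw [Nat.card_zpowers]
    exact Nat.coprime_two_right.2 ho
  have key := S0028.result (G := G) 2 N0 (zpowers c) Q C.isPGroup hco hQ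
    (by
      intro a ha
      rw [mem_centralizer_iff]
      rintro _ ⟨k, rfl⟩
      have : Commute c a := hc a ha
      exact (this.zpow_left k))
    (by
      intro a ha
      rw [mem_normalizer_iff]
      intro w
      constructor
      · exact hn a (C.comm a ha) w
      · intro hw
        have h1 := hn a⁻¹ ((C.comm a ha).inv C.ord C.mem) _ hw
        have e : a⁻¹ * (a * w * a⁻¹) * a⁻¹⁻¹ = w := by group
        rwa [e] at h1)
    (by
      rw [zpowers_le, mem_normalizer_iff]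
      intro w
      have hA : Act z N0 c := act_of_comm hc
      constructor
      · exact hn c hA w
      · intro hw
        have h1 := hn c⁻¹ (hA.inv C.ord C.mem) _ hw
        have e : c⁻¹ * (c * w * c⁻¹) * c⁻¹⁻¹ = w := by group
        rwa [e] at h1)
    (by
      rintro w ⟨hwQ, hwN⟩
      have hwW : w ∈ W := by
        refine ⟨hwQ, act_of_comm fun a ha => ?_⟩
        exact (mem_centralizer_iff.1 hwN a ha).symm
      rw [mem_centralizer_iff]
      rintro _ ⟨k, rfl⟩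
      have : Commute c w := hWc w hwW
      exact this.zpow_left k)
  intro w hw
  exact (mem_centralizer_iff.1 (key (mem_zpowers c)) w hw).symm

/-- a normalized subgroup `M` with a normalized normal 2-subgroup `Q`, `C_M(Q) ≤ Q` -/
theorem comm_char2 [Finite G] {M Q : Subgroup G} (hM : ∀ g, Act z N0 g → ∀ m ∈ M, g * m * g⁻¹ ∈ M)
    (hQ : IsPGroup 2 Q) (hn : ∀ g, Act z N0 g → ∀ w ∈ Q, g * w * g⁻¹ ∈ Q)
    (hMQ : ∀ m ∈ M, ∀ q ∈ Q, m * q * m⁻¹ ∈ Q)
    (hch : ∀ m ∈ M, (∀ q ∈ Q, m * q = q * m) → m ∈ Q) {c : G} (hc : ∀ a ∈ N0, c * a = a * c)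
    (ho : Odd (orderOf c)) : ∀ m ∈ M, c * m = m * c := by
  have h1 := C.comm_two hQ hn hc ho
  intro m hm
  have hA : Act z N0 c := act_of_comm hc
  -- `d = c m c⁻¹ m⁻¹` commutes with `Q`
  have hd : c * m * c⁻¹ * m⁻¹ ∈ M := mul_mem (hM c hA m hm) (inv_mem hm)
  have hdQ : c * m * c⁻¹ * m⁻¹ ∈ Q := by
    apply hch _ hd
    intro q hq
    have e0 : m⁻¹ * q * m ∈ Q := by
      have := hMQ m⁻¹ (inv_mem hm) q hq
      rwa [inv_inv] at this
    have e1 := h1 _ e0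
    have e2 := h1 q hq
    -- `c` commutes with `q` and `m⁻¹ q m`
    have e3 : c⁻¹ * (m⁻¹ * q * m) = (m⁻¹ * q * m) * c⁻¹ := by
      rw [inv_mul_eq_iff_eq_mul, ← mul_assoc, e1, mul_inv_cancel_right]
    calc c * m * c⁻¹ * m⁻¹ * q = c * m * (c⁻¹ * (m⁻¹ * q * m)) * m⁻¹ := by group
      _ = c * m * ((m⁻¹ * q * m) * c⁻¹) * m⁻¹ := by rw [e3]
      _ = (c * q) * m * c⁻¹ * m⁻¹ := by group
      _ = (q * c) * m * c⁻¹ * m⁻¹ := by rw [e2]
      _ = q * (c * m * c⁻¹ * m⁻¹) := by group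
  set d := c * m * c⁻¹ * m⁻¹ with hddef
  have hcd : c * d = d * c := h1 d hdQ
  -- `m c m⁻¹ = d⁻¹ c`
  have e4 : m * c * m⁻¹ = d⁻¹ * c := by
    rw [hddef]; group
  have hcom : Commute d⁻¹ c := (show Commute d c from hcd.symm).inv_left
  have e5 : d⁻¹ ^ orderOf c = 1 := by
    have h2 : (m * c * m⁻¹) ^ orderOf c = 1 := by
      rw [conj_pow, pow_orderOf_eq_one, mul_one, mul_inv_cancel]
    rw [e4, hcom.mul_pow, pow_orderOf_eq_one, mul_one] at h2
    exact h2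
  obtain ⟨k, hk⟩ := hQ ⟨d⁻¹, inv_mem hdQ⟩
  have hk' : d⁻¹ ^ 2 ^ k = 1 := congrArg Subtype.val hk
  have h6 : orderOf d⁻¹ ∣ 1 := by
    have h7 : (orderOf c).Coprime (2 ^ k) := (Nat.coprime_two_right.2 ho).pow_right k
    exact h7 ▸ Nat.dvd_gcd (orderOf_dvd_of_pow_eq_one e5) (orderOf_dvd_of_pow_eq_one hk')
  have h8 : d = 1 := by
    have := orderOf_eq_one_iff.1 (Nat.dvd_one.1 h6)
    rwa [inv_eq_one] at this
  rw [hddef, mul_inv_eq_one, mul_inv_eq_iff_eq_mul] at h8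
  exact h8

/-- no normalized subgroup of characteristic 2 contains an element `≠ 1` of odd order of `C(N0)` -/
theorem not_char2 [Finite G] {M Q : Subgroup G} (hM : ∀ g, Act z N0 g → ∀ m ∈ M, g * m * g⁻¹ ∈ M)
    (hQ : IsPGroup 2 Q) (hn : ∀ g, Act z N0 g → ∀ w ∈ Q, g * w * g⁻¹ ∈ Q)
    (hMQ : ∀ m ∈ M, ∀ q ∈ Q, m * q * m⁻¹ ∈ Q)
    (hch : ∀ m ∈ M, (∀ q ∈ Q, m * q = q * m) → m ∈ Q) {c : G} (hc : ∀ a ∈ N0, c * a = a * c)
    (ho : Odd (orderOf c)) (hcM : c ∈ M) : c = 1 := by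
  have h1 := C.comm_two hQ hn hc ho
  have h2 : c ∈ Q := hch c hcM h1
  obtain ⟨k, hk⟩ := hQ ⟨c, h2⟩
  have hk' : c ^ 2 ^ k = 1 := congrArg Subtype.val hk
  have h6 : orderOf c ∣ 1 := by
    have h7 : (orderOf c).Coprime (2 ^ k) := (Nat.coprime_two_right.2 ho).pow_right k
    exact h7 ▸ Nat.dvd_gcd dvd_rfl (orderOf_dvd_of_pow_eq_one hk')
  exact orderOf_eq_one_iff.1 (Nat.dvd_one.1 h6)

/-- **`C(z)` is not of characteristic 2** -/
theorem not_char2_cent [Finite G] {c : G} (hc : ∀ a ∈ N0, c * a = a * c) (ho : Odd (orderOf c)) (hc1 : c ≠ 1) :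
    ¬ IsOfCharacteristicTwo ↥(centralizer ({z} : Set G)) := by
  intro h
  have : Fact (Nat.Prime 2) := ⟨Nat.prime_two⟩
  apply hc1
  let Z := centralizer ({z} : Set G)
  have hcore : IsPGroup 2 ↥(pCore 2 ↥Z) := Lib.Cores.pCore_isPGroup 2
  have hchr : (pCore 2 ↥Z).Normal := Lib.Cores.pCore_normal 2
  have hnA : ∀ g, Act z N0 g → g ∈ Z := fun g hg => mem_centralizer_singleton_iff.2 (hg.comm_z C.ord C.mem)
  refine C.not_char2 (M := Z) (Q := (pCore 2 ↥Z).map Z.subtype) ?_ (hcore.map _) ?_ ?_ ?_ hc ho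
    (mem_centralizer_singleton_iff.2 (hc z C.mem))
  · intro g hg m hm
    exact mul_mem (mul_mem (hnA g hg) hm) (inv_mem (hnA g hg))
  · rintro g hg _ ⟨w, hw, rfl⟩
    exact ⟨⟨g, hnA g hg⟩ * w * ⟨g, hnA g hg⟩⁻¹, hchr.conj_mem w hw _, rfl⟩
  · rintro m hm _ ⟨w, hw, rfl⟩
    exact ⟨⟨m, hm⟩ * w * ⟨m, hm⟩⁻¹, hchr.conj_mem w hw _, rfl⟩
  · intro m hm hq
    refine ⟨⟨m, hm⟩, h ?_, rfl⟩
    rw [mem_centralizer_iff]
    intro q hq'
    exact Subtype.ext (hq _ ⟨q, hq', rfl⟩).symm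

end Conf

end Cfsg.Agent.H738.C3
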