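import Mathlib
import Cfsg.Agent.H738.C3.Tools
import Cfsg.Agent.NotCT.Orders

/-!
# S1920, case B: sporadic groups with `2 ^ 10 ∤ |G|` (helper738)
-/

set_option autoImplicit false

open Subgroup Equiv Cfsg

universe u

namespace Cfsg.Agent.H738.C3

open Cfsg.Agent.H13.Co3

variable {G : Type u} [Group G] [Finite G]
variable {P N0 : Subgroup G} {z s : G} {ψ : ↥(normalizer (P : Set G)) →* Equiv.Perm (Fin 6)}

theorem of_order (C : CB P N0 z s ψ) {n : ℕ} (h : Nat.card G = n) (hn : ¬ 2 ^ 10 * 45 ∣ n) : False :=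
  hn (h ▸ dvd_card C)

theorem row_m11 (h : Spor.IsoM11 G) (C : CB P N0 z s ψ) : False := of_order C (NotCT.Orders.m11 h) (by decide)
theorem row_m12 (h : Spor.IsoM12 G) (C : CB P N0 z s ψ) : False := of_order C (NotCT.Orders.m12 h) (by decide)
theorem row_m22 (h : Spor.IsoM22 G) (C : CB P N0 z s ψ) : False := of_order C (NotCT.Orders.m22 h) (by decide)
theorem row_m23 (h : Spor.IsoM23 G) (C : CB P N0 z s ψ) : False := of_order C (NotCT.Orders.m23 h) (by decide)
theorem row_j1 (h : Spor.IsoJ1 G) (C : CB P N0 z s ψ) : False := of_order C (NotCT.Orders.j1 h) (by decide)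
theorem row_j2 (h : Spor.IsoJ2 G) (C : CB P N0 z s ψ) : False := of_order C (NotCT.Orders.j2 h) (by decide)
theorem row_j3 (h : Spor.IsoJ3 G) (C : CB P N0 z s ψ) : False := of_order C (NotCT.Orders.j3 h) (by decide)
theorem row_hs (h : Spor.IsoHS G) (C : CB P N0 z s ψ) : False := of_order C (NotCT.Orders.hs h) (by decide)
theorem row_mcl (h : Spor.IsoMcL G) (C : CB P N0 z s ψ) : False := of_order C (NotCT.Orders.mcl h) (by decide)
theorem row_ly (h : Spor.IsoLy G) (C : CB P N0 z s ψ) : False := of_order C (NotCT.Orders.ly h) (by decide)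
theorem row_on (h : Spor.IsoON G) (C : CB P N0 z s ψ) : False := of_order C (NotCT.Orders.on h) (by decide)

end Cfsg.Agent.H738.C3
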